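import Cfsg.Agent.H694.P1Core

/-!
# Good characters from real elements of odd order
-/

set_option autoImplicit false
set_option linter.unusedSectionVars false
set_option linter.style.haveILetI false

namespace Cfsg.Agent.H694

open Cfsg Representation
open scoped ComplexConjugate commutatorElement
open Cfsg.Agent.Characters.Core
open Cfsg.Agent.H705.StrongLin (ind ind_eq real_of_ind)
open Cfsg.Agent.OddOrderCharacters.PF9.CliffGen (resTo)

universe u v

/-- an algebraic integer twice which is an integer -/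
theorem not_odd_of_two_mul {c : ℕ} (hc : Odd c) {z : ℂ} (hz : IsIntegral ℤ z) (h : (c : ℂ) = 2 * z) :
    False :=
  Int.not_even_iff_odd.2 (by exact_mod_cast hc : Odd (c : ℤ))
    (Cfsg.Agent.HKS.CosetTwo.not_odd_of_integral (n := (c : ℤ)) hz (by push_cast; exact h))

theorem exists_odd_of_sum {m : ℕ} {a : ℕ → ℂ} (ha : ∀ j, IsIntegral ℤ (a j)) {b : ℕ → ℕ → ℤ} {c : ℕ}
    (hc : Odd c)
    (h : ∑ j ∈ Finset.range m, ∑ k ∈ Finset.range m, a j * a k * (b j k : ℂ) = c) :
    ∃ j k, Odd (b j k) := by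
  by_contra hcon
  push Not at hcon
  have h1 : ∀ j k, ∃ n : ℤ, b j k = 2 * n := by
    intro j k
    obtain ⟨n, hn⟩ := Int.not_odd_iff_even.1 (hcon j k)
    exact ⟨n, by rw [hn]; ring⟩
  choose n hn using h1
  refine not_odd_of_two_mul hc
    (z := ∑ j ∈ Finset.range m, ∑ k ∈ Finset.range m, a j * a k * (n j k : ℂ)) ?_ ?_
  · refine IsIntegral.sum _ fun j _ => IsIntegral.sum _ fun k _ => ?_
    exact ((ha j).mul (ha k)).mul (isIntegral_algebraMap (R := ℤ) (x := n j k))
  · rw [← h, Finset.mul_sum]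
    refine Finset.sum_congr rfl fun j _ => ?_
    rw [Finset.mul_sum]
    refine Finset.sum_congr rfl fun k _ => ?_
    rw [hn]
    push_cast
    ring

theorem sum_symm (F : ℕ → ℕ → ℂ) (hF : ∀ j k, F j k = F k j) (m : ℕ) :
    ∑ j ∈ Finset.range m, ∑ k ∈ Finset.range m, F j k =
      ∑ j ∈ Finset.range m, F j j + 2 * ∑ j ∈ Finset.range m, ∑ k ∈ Finset.range j, F j k := by
  induction m with
  | zero => simp
  | succ m ih =>
    rw [Finset.sum_range_succ, Finset.sum_congr rfl fun j _ => Finset.sum_range_succ (F j) m,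
      Finset.sum_add_distrib, ih, Finset.sum_range_succ, Finset.sum_range_succ, Finset.sum_range_succ]
    have h1 : ∑ j ∈ Finset.range m, F j m = ∑ j ∈ Finset.range m, F m j :=
      Finset.sum_congr rfl fun j _ => hF j m
    rw [h1]
    ring

theorem exists_odd_diag {m : ℕ} {a : ℕ → ℂ} (ha : ∀ j, IsIntegral ℤ (a j)) {b : ℕ → ℕ → ℤ} {c : ℕ}
    (hb : ∀ j k, b j k = b k j) (hc : Odd c)
    (h : ∑ j ∈ Finset.range m, ∑ k ∈ Finset.range m, a j * a k * (b j k : ℂ) = c) :
    ∃ j, Odd (b j j) := by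
  by_contra hcon
  push Not at hcon
  have h1 : ∀ j, ∃ n : ℤ, b j j = 2 * n := by
    intro j
    obtain ⟨n, hn⟩ := Int.not_odd_iff_even.1 (hcon j)
    exact ⟨n, by rw [hn]; ring⟩
  choose n hn using h1
  have hint : ∀ j k, IsIntegral ℤ (a j * a k * (b j k : ℂ)) := fun j k =>
    ((ha j).mul (ha k)).mul (isIntegral_algebraMap (R := ℤ) (x := b j k))
  refine not_odd_of_two_mul hc
    (z := ∑ j ∈ Finset.range m, a j * a j * (n j : ℂ) +
      ∑ j ∈ Finset.range m, ∑ k ∈ Finset.range j, a j * a k * (b j k : ℂ)) ?_ ?_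
  · refine IsIntegral.add (IsIntegral.sum _ fun j _ => ?_)
      (IsIntegral.sum _ fun j _ => IsIntegral.sum _ fun k _ => hint j k)
    exact ((ha j).mul (ha j)).mul (isIntegral_algebraMap (R := ℤ) (x := n j))
  · have h4 : ∑ j ∈ Finset.range m, ∑ k ∈ Finset.range m, a j * a k * (b j k : ℂ) =
        ∑ j ∈ Finset.range m, a j * a j * (b j j : ℂ) +
          2 * ∑ j ∈ Finset.range m, ∑ k ∈ Finset.range j, a j * a k * (b j k : ℂ) :=
      sum_symm (fun j k => a j * a k * (b j k : ℂ)) (fun j k => by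
        show a j * a k * (b j k : ℂ) = a k * a j * (b k j : ℂ)
        rw [hb j k]
        ring) m
    have h5 : ∑ j ∈ Finset.range m, a j * a j * (b j j : ℂ) =
        2 * ∑ j ∈ Finset.range m, a j * a j * (n j : ℂ) := by
      rw [Finset.mul_sum]
      refine Finset.sum_congr rfl fun j _ => ?_
      rw [hn]
      push_cast
      ring
    rw [← h, h4, h5, mul_add]

/-- **Mackey's formula** for `J = N E`. -/
theorem indFun_restrict {J : Type u} [Group J] [Fintype J] (N E : Subgroup J) [hN : N.Normal]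
    [Fintype N] (hNE : N ⊔ E = ⊤) {ρ : E → ℂ} (hρ : IsClassFunction E ρ) (n : N) :
    indFun E ρ (n : J) =
      indFun (E.subgroupOf N) (fun x => ρ ⟨((x : N) : J), Subgroup.mem_subgroupOf.1 x.2⟩) n := by
  classical
  haveI : Fintype E := Fintype.ofFinite _
  have hext : ∀ (e : E) (z : J), extendByZero E ρ ((e : J)⁻¹ * z * e) = extendByZero E ρ z := by
    intro e z
    by_cases hz : z ∈ E
    · have h1 : (e : J)⁻¹ * z * e ∈ E := E.mul_mem (E.mul_mem (E.inv_mem e.2) hz) e.2
      rw [extendByZero_of_mem E ρ h1, extendByZero_of_mem E ρ hz]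
      have h2 := hρ ⟨z, hz⟩ e⁻¹
      have h3 : (e⁻¹ * ⟨z, hz⟩ * e⁻¹⁻¹ : E) = ⟨(e : J)⁻¹ * z * e, h1⟩ := by
        apply Subtype.ext
        show (e : J)⁻¹ * z * (e : J)⁻¹⁻¹ = _
        rw [inv_inv]
      rw [h3] at h2
      exact h2
    · have h1 : (e : J)⁻¹ * z * e ∉ E := by
        intro h
        apply hz
        have h2 := E.mul_mem (E.mul_mem e.2 h) (E.inv_mem e.2)
        have h3 : (e : J) * ((e : J)⁻¹ * z * e) * (e : J)⁻¹ = z := by group
        rwa [h3] at h2
      rw [extendByZero_of_notMem E ρ h1, extendByZero_of_notMem E ρ hz]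
  let F : J → ℂ := fun x => extendByZero E ρ (x⁻¹ * n * x)
  -- the fibres of `N × E → J`
  have hsurj : ∀ x : J, ∃ a ∈ N, ∃ e ∈ E, a * e = x := by
    intro x
    have h1 : x ∈ N ⊔ E := by rw [hNE]; exact Subgroup.mem_top x
    rw [Subgroup.mem_sup_of_normal_left] at h1
    obtain ⟨a, ha, e, he, h⟩ := h1
    exact ⟨a, ha, e, he, h⟩
  have hfib : ∀ x : J, (Finset.univ.filter fun p : N × E => (p.1 : J) * p.2 = x).card =
      Nat.card (E.subgroupOf N) := by
    intro x
    obtain ⟨a, ha, e, he, rfl⟩ := hsurj x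
    rw [← Fintype.card_subtype, ← Nat.card_eq_fintype_card]
    refine Nat.card_congr (Equiv.symm ⟨fun s => ⟨(⟨a, ha⟩ * (s : N), ⟨((s : N) : J)⁻¹ * e,
      E.mul_mem (E.inv_mem (Subgroup.mem_subgroupOf.1 s.2)) he⟩), ?_⟩,
      fun p => ⟨⟨a, ha⟩⁻¹ * p.1.1, ?_⟩, ?_, ?_⟩)
    · show a * ((s : N) : J) * (((s : N) : J)⁻¹ * e) = a * e
      group
    · rw [Subgroup.mem_subgroupOf]
      show a⁻¹ * (p.1.1 : J) ∈ E
      have h1 : (p.1.1 : J) * p.1.2 = a * e := p.2
      have h2 : a⁻¹ * (p.1.1 : J) = e * (p.1.2 : J)⁻¹ := by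
        rw [inv_mul_eq_iff_eq_mul, ← mul_assoc]
        exact eq_mul_inv_of_mul_eq h1
      rw [h2]
      exact E.mul_mem he (E.inv_mem p.1.2.2)
    · intro s
      apply Subtype.ext
      show (⟨a, ha⟩ : N)⁻¹ * (⟨a, ha⟩ * (s : N)) = s
      exact inv_mul_cancel_left _ _
    · intro p
      have h1 : (p.1.1 : J) * p.1.2 = a * e := p.2
      apply Subtype.ext
      refine Prod.ext ?_ (Subtype.ext ?_)
      · show (⟨a, ha⟩ : N) * ((⟨a, ha⟩ : N)⁻¹ * p.1.1) = p.1.1
        exact mul_inv_cancel_left _ _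
      · show (a⁻¹ * (p.1.1 : J))⁻¹ * e = p.1.2
        rw [mul_inv_rev, inv_inv, mul_assoc]
        exact inv_mul_eq_of_eq_mul h1.symm
  have h1 : ∑ p : N × E, F ((p.1 : J) * p.2) = (Nat.card (E.subgroupOf N) : ℂ) * ∑ x : J, F x := by
    rw [← Finset.sum_fiberwise (s := Finset.univ) (fun p : N × E => (p.1 : J) * p.2), Finset.mul_sum]
    refine Finset.sum_congr rfl fun x _ => ?_
    rw [Finset.sum_congr rfl fun p hp => by rw [(Finset.mem_filter.1 hp).2], Finset.sum_const,
      hfib, nsmul_eq_mul]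
  have h2 : ∑ p : N × E, F ((p.1 : J) * p.2) = (Nat.card E : ℂ) * ∑ a : N, F a := by
    rw [Fintype.sum_prod_type, Finset.mul_sum]
    refine Finset.sum_congr rfl fun a _ => ?_
    have h3 : ∀ e : E, F ((a : J) * e) = F a := by
      intro e
      show extendByZero E ρ (((a : J) * e)⁻¹ * n * ((a : J) * e)) = extendByZero E ρ ((a : J)⁻¹ * n * a)
      have h5 : ((a : J) * e)⁻¹ * n * ((a : J) * e) = (e : J)⁻¹ * ((a : J)⁻¹ * n * a) * e := by group
      rw [h5, hext]
    rw [Finset.sum_congr rfl fun e _ => h3 e, Finset.sum_const, Finset.card_univ, nsmul_eq_mul,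
      Nat.card_eq_fintype_card]
  have h3 : ∀ a : N, F a = extendByZero (E.subgroupOf N)
      (fun x => ρ ⟨((x : N) : J), Subgroup.mem_subgroupOf.1 x.2⟩) (a⁻¹ * n * a) := by
    intro a
    by_cases h : (a : J)⁻¹ * n * a ∈ E
    · have h' : a⁻¹ * n * a ∈ E.subgroupOf N := Subgroup.mem_subgroupOf.2 h
      rw [extendByZero_of_mem _ _ h']
      exact extendByZero_of_mem E ρ h
    · have h' : a⁻¹ * n * a ∉ E.subgroupOf N := fun h' => h (Subgroup.mem_subgroupOf.1 h')
      rw [extendByZero_of_notMem _ _ h']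
      exact extendByZero_of_notMem E ρ h
  rw [indFun_apply, indFun_apply, ← Finset.sum_congr rfl fun a _ => h3 a]
  have h4 : (Nat.card E : ℂ) ≠ 0 := card_ne_zero_complex
  have h5 : (Nat.card (E.subgroupOf N) : ℂ) ≠ 0 := card_ne_zero_complex
  rw [h1] at h2
  show (Nat.card E : ℂ)⁻¹ * ∑ x : J, F x = (Nat.card (E.subgroupOf N) : ℂ)⁻¹ * ∑ a : N, F a
  field_simp
  linear_combination h2

/-- the pairings are integers -/
theorem exists_int_pair {H : Type u} [Group H] [Fintype H] {α β : H → ℂ} (hα : RChar α) (hβ : RChar β) :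
    ∃ n : ℤ, classInner α β = n := by
  classical
  haveI := @Fintype.ofFinite (IrrCharacter H) finite_irr
  refine ⟨∑ ψ : IrrCharacter H, mu α ψ * mu β ψ, ?_⟩
  rw [classInner_eq_sum hα.cf hβ.cf]
  push_cast
  refine Finset.sum_congr rfl fun ψ _ => ?_
  rw [hα.mu_spec ψ.2, hβ.mu_spec ψ.2]
  simp

/-- **Case B**: the stabilizer lies in a subgroup of index two. -/
theorem good_of_locB {G : Type u} [Group G] [Fintype G] (N D : Subgroup G) [hN : N.Normal]
    [D.Normal] [Fintype N] (hperf : ⁅N, N⁆ = N)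
    (h2 : ∀ φ : N → ℂ, IsIrrCharacter N φ → charDegree φ ≠ 2) (hD : D.index = 2) (hND : N ≤ D)
    {y : G} {K : Subgroup G} (L : LocJ N y K) (hyD : Cst y ≤ D) : ∃ χ, Good G N χ := by
  classical
  obtain ⟨E, m, ρ, a, c, hEA, hEodd, hρR, hρ1, haI, hcodd, hsum⟩ := L.core
  haveI : Fintype E := Fintype.ofFinite _
  haveI : Fintype (E.subgroupOf N) := Fintype.ofFinite _
  let i : E.subgroupOf N →* E :=
    { toFun := fun x => ⟨((x : N) : G), Subgroup.mem_subgroupOf.1 x.2⟩
      map_one' := rfl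
      map_mul' := fun _ _ => rfl }
  have hπ : ∀ j, RChar (indFun E (ρ j)) := fun j => (hρR j).indFun E
  have hb : ∀ j k, ∃ n : ℤ, classInner (fun x : E.subgroupOf N => indFun E (ρ j) ((x : N) : G))
      (fun x : E.subgroupOf N => ρ k (i x)) = n := fun j k =>
    exists_int_pair ((hπ j).comp (N.subtype.comp (E.subgroupOf N).subtype)) ((hρR k).comp i)
  choose b hb using hb
  have hsum' := hsum
  have h3 : ∑ j ∈ Finset.range m, ∑ k ∈ Finset.range m, a j * a k * (b j k : ℂ) = c := by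
    rw [← hsum']
    refine Finset.sum_congr rfl fun j _ => Finset.sum_congr rfl fun k _ => ?_
    rw [← hb j k]
    rfl
  obtain ⟨j, k, hjk⟩ := exists_odd_of_sum haI hcodd h3
  refine good_of_pair N D hperf h2 hD hND (hπ j) ?_ (E.subgroupOf N).subtype ((hρR k).comp i)
    (hb j k) hjk
  intro g hg
  rw [indFun_apply, Finset.sum_eq_zero, mul_zero]
  intro x _
  refine extendByZero_of_notMem E _ fun h => hg ?_
  have h4 : x⁻¹ * g * x ∈ D := hyD (hEA h)
  have h5 := Subgroup.Normal.conj_mem inferInstance _ h4 x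
  have h6 : x * (x⁻¹ * g * x) * x⁻¹ = g := by group
  rwa [h6] at h5

/-- `J = N E` -/
theorem sup_eq_top {J : Type u} [Group J] [Finite J] (N E A : Subgroup J) [hN : N.Normal]
    (h2 : IsPGroup 2 (J ⧸ N)) (hNA : N ⊔ A = ⊤) (hodd : Odd (E.relIndex A)) : N ⊔ E = ⊤ := by
  let q : A →* J ⧸ N := (QuotientGroup.mk' N).comp A.subtype
  have hq : Function.Surjective q := by
    intro z
    obtain ⟨g, rfl⟩ := QuotientGroup.mk'_surjective N z
    have h1 : g ∈ N ⊔ A := by rw [hNA]; exact Subgroup.mem_top g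
    rw [Subgroup.mem_sup_of_normal_left] at h1
    obtain ⟨n, hn, a, ha, rfl⟩ := h1
    refine ⟨⟨a, ha⟩, ?_⟩
    show QuotientGroup.mk' N a = QuotientGroup.mk' N (n * a)
    rw [map_mul, (QuotientGroup.eq_one_iff n).2 hn |> fun h => (show QuotientGroup.mk' N n = 1 from h),
      one_mul]
  let E' := E.map (QuotientGroup.mk' N)
  have h3 : (E'.comap q).index = E'.index := Subgroup.index_comap_of_surjective E' hq
  have h4 : E.subgroupOf A ≤ E'.comap q := by
    intro x hx
    exact ⟨(x : J), Subgroup.mem_subgroupOf.1 hx, rfl⟩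
  have h5 : E'.index ∣ E.relIndex A := by
    rw [← h3]
    exact Subgroup.index_dvd_of_le h4
  have h6 := hodd.of_dvd_nat h5
  obtain ⟨k, hk⟩ := IsPGroup.iff_card.1 h2
  have h7 : E'.index ∣ 2 ^ k := hk ▸ E'.index_dvd_card
  have h8 : E'.index = 1 :=
    Nat.eq_one_of_dvd_coprimes (Nat.Coprime.pow_right k (Nat.coprime_two_right.2 h6)) dvd_rfl h7
  rw [Subgroup.index_eq_one] at h8
  rw [eq_top_iff]
  intro g _
  have h9 : (QuotientGroup.mk' N g) ∈ E' := by rw [h8]; exact Subgroup.mem_top _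
  obtain ⟨e, he, heg⟩ := h9
  have h10 : g * e⁻¹ ∈ N := by
    rw [← QuotientGroup.eq_one_iff]
    have : ((g * e⁻¹ : J) : J ⧸ N) = QuotientGroup.mk' N g * (QuotientGroup.mk' N e)⁻¹ := rfl
    rw [this, heg, mul_inv_cancel]
  have h11 : g = g * e⁻¹ * e := by group
  rw [h11]
  exact Subgroup.mul_mem_sup h10 he

/-- **Case A**: the stabilizer has odd index. -/
theorem good_of_locA {G : Type u} [Group G] [Fintype G] (N J : Subgroup G) [hN : N.Normal]
    [Fintype N] (hperf : ⁅N, N⁆ = N)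
    (h2 : ∀ φ : N → ℂ, IsIrrCharacter N φ → charDegree φ ≠ 2) (hJ : Odd J.index) (hNJ : N ≤ J)
    {y : J} {K : Subgroup J} (L : LocJ (N.subgroupOf J) y K)
    (hJN : IsPGroup 2 (J ⧸ N.subgroupOf J)) (hsup : N.subgroupOf J ⊔ Cst y = ⊤) :
    ∃ χ, Good G N χ := by
  classical
  haveI : Fintype J := Fintype.ofFinite _
  haveI : Fintype (N.subgroupOf J) := Fintype.ofFinite _
  obtain ⟨E, m, ρ, a, c, hEA, hEodd, hρR, hρ1, haI, hcodd, hsum⟩ := L.core
  set N' := N.subgroupOf J with hN'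
  haveI : Fintype E := Fintype.ofFinite _
  haveI : Fintype (E.subgroupOf N') := Fintype.ofFinite _
  have hNE : N' ⊔ E = ⊤ := sup_eq_top N' E (Cst y) hJN hsup hEodd
  let i : E.subgroupOf N' →* E :=
    { toFun := fun x => ⟨((x : N') : J), Subgroup.mem_subgroupOf.1 x.2⟩
      map_one' := rfl
      map_mul' := fun _ _ => rfl }
  have hπ : ∀ j, RChar (indFun E (ρ j)) := fun j => (hρR j).indFun E
  have hπN : ∀ j, RChar (fun x : N' => indFun E (ρ j) (x : J)) := fun j => (hπ j).comp N'.subtype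
  have hb : ∀ j k, ∃ n : ℤ, classInner (fun x : N' => indFun E (ρ j) (x : J))
      (fun x : N' => indFun E (ρ k) (x : J)) = n := fun j k => exists_int_pair (hπN j) (hπN k)
  choose b hb using hb
  have hbs : ∀ j k, b j k = b k j := by
    intro j k
    have h3 := classInner_conj_symm (fun x : N' => indFun E (ρ k) (x : J))
      (fun x : N' => indFun E (ρ j) (x : J))
    rw [hb, hb, map_intCast] at h3
    exact_mod_cast h3.symm
  have h3 : ∑ j ∈ Finset.range m, ∑ k ∈ Finset.range m, a j * a k * (b j k : ℂ) = c := by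
    rw [← hsum]
    refine Finset.sum_congr rfl fun j _ => Finset.sum_congr rfl fun k _ => ?_
    congr 1
    rw [← hb j k]
    have h4 : (fun x : N' => indFun E (ρ k) (x : J)) =
        indFun (E.subgroupOf N') (fun x => ρ k ⟨((x : N') : J), Subgroup.mem_subgroupOf.1 x.2⟩) :=
      funext fun n => indFun_restrict N' E hNE (hρR k).cf n
    rw [h4]
    exact (Cfsg.Agent.OddOrderCharacters.IndRes.classInner_indFun_right (H := E.subgroupOf N') _
      (hπN j).cf)
  obtain ⟨j, hj⟩ := exists_odd_diag haI hbs hcodd h3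
  refine good_of_parity N hperf h2 J hJ hNJ (hπ j) (a := b j j) (b := 2 * (E.index : ℤ)) ?_ ?_ ?_
  · rw [← hb j j]
    exact (Cfsg.Agent.Characters.Clifford.classInner_comp_mulEquiv
      (Subgroup.subgroupOfEquivOfLe hNJ : N.subgroupOf J ≃* N) (resTo hNJ (indFun E (ρ j)))
      (resTo hNJ (indFun E (ρ j)))).symm
  · rw [Cfsg.Agent.OddOrderCharacters.IndRes.indFun_apply_one, hρ1]
    push_cast
    ring
  · exact hj.add_even (even_two_mul _)

end Cfsg.Agent.H694
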