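import Cfsg.Agent.H694.P1Good
import Cfsg.Agent.H694.P1Data

/-!
# Good characters from `P1Data`
-/

set_option autoImplicit false
set_option linter.unusedSectionVars false
set_option linter.style.haveILetI false

namespace Cfsg.Agent.H694

open Cfsg Representation
open scoped ComplexConjugate commutatorElement
open Cfsg.Agent.Characters.Core

universe u v

theorem good_of_p1Data {G : Type u} [Group G] [Fintype G] (N : Subgroup G) [hN : N.Normal]
    [Fintype N] (hperf : ⁅N, N⁆ = N)
    (h2 : ∀ φ : N → ℂ, IsIrrCharacter N φ → charDegree φ ≠ 2) (h : P1Data N) : ∃ χ, Good G N χ := by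
  classical
  let f : G →* MulAut N := MulAut.conjNormal
  have hconj : ∀ n : N, f (n : G) = MulAut.conj n := by
    intro n
    ext s
    show (((MulAut.conjNormal (n : G) : MulAut N) s : N) : G) = _
    rw [MulAut.conjNormal_apply, MulAut.conj_apply]
    rfl
  obtain ⟨y, K, hL, hcase⟩ := h f.range (fun s => ⟨(s : G), hconj s⟩)
  have hLG : LocJ N (y : G) (K.map N.subtype) := hL.locJ N
  rcases hcase with hodd | ⟨D, hD1, hD2⟩
  · -- the stabilizer
    set A : Subgroup G := (stab y).comap f with hA
    have hAi : Odd A.index := by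
      rw [hA, Subgroup.index_comap]
      exact hodd
    have hmemA : ∀ g, g ∈ A ↔ IsConj y (f g y) := fun g => Iff.rfl
    have hNA : N ≤ A := by
      intro n hn
      rw [hmemA]
      have := hconj ⟨n, hn⟩
      rw [show f n = MulAut.conj ⟨n, hn⟩ from this]
      exact isConj_iff.2 ⟨_, rfl⟩
    haveI : Fact (Nat.Prime 2) := ⟨Nat.prime_two⟩
    obtain ⟨P⟩ : Nonempty (Sylow 2 A) := inferInstance
    set J : Subgroup G := N ⊔ (P : Subgroup A).map A.subtype with hJ
    have hPA : (P : Subgroup A).map A.subtype ≤ A := Subgroup.map_subtype_le _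
    have hJA : J ≤ A := sup_le hNA hPA
    have hNJ : N ≤ J := le_sup_left
    have hJodd : Odd J.index := by
      have h1 : Odd (((P : Subgroup A).map A.subtype).index) := by
        rw [← Subgroup.relIndex_mul_index hPA]
        refine Odd.mul ?_ hAi
        have h3 : ((P : Subgroup A).map A.subtype).relIndex A = (P : Subgroup A).index := by
          rw [Subgroup.relIndex, Subgroup.subgroupOf,
            Subgroup.comap_map_eq_self_of_injective A.subtype_injective]
        rw [h3]
        have := P.not_dvd_index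
        rwa [← even_iff_two_dvd, Nat.not_even_iff_odd] at this
      exact h1.of_dvd_nat (Subgroup.index_dvd_of_le le_sup_right)
    have hJN : IsPGroup 2 (J ⧸ N.subgroupOf J) := by
      intro z
      obtain ⟨g, rfl⟩ := QuotientGroup.mk_surjective z
      have h1 : (g : G) ∈ N ⊔ (P : Subgroup A).map A.subtype := g.2
      obtain ⟨n, hn, p, ⟨p', hp', rfl⟩, hg⟩ := Subgroup.mem_sup_of_normal_left.1 h1
      obtain ⟨k, hk⟩ := P.2 ⟨p', hp'⟩
      refine ⟨k, ?_⟩
      have hk' : (p' : G) ^ 2 ^ k = 1 := congrArg (fun x : (P : Subgroup A) => ((x : A) : G)) hk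
      have hpJ : ((p' : A) : G) ∈ J := Subgroup.mem_sup_right ⟨p', hp', rfl⟩
      have h3 : ((g : J) : J ⧸ N.subgroupOf J) = ((⟨(p' : A), hpJ⟩ : J) : J ⧸ N.subgroupOf J) := by
        rw [eq_comm, QuotientGroup.eq, Subgroup.mem_subgroupOf]
        show ((p' : A) : G)⁻¹ * (g : G) ∈ N
        rw [← hg]
        have h4 := hN.conj_mem n hn ((p' : A) : G)⁻¹
        rw [inv_inv] at h4
        have h5 : ((p' : A) : G)⁻¹ * (n * A.subtype p') = ((p' : A) : G)⁻¹ * n * (p' : A) := by
          rw [mul_assoc]
          rfl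
        rw [h5]
        exact h4
      rw [h3, ← QuotientGroup.mk_pow]
      have h4 : (⟨(p' : A), hpJ⟩ : J) ^ 2 ^ k = 1 := Subtype.ext hk'
      rw [h4, QuotientGroup.mk_one]
    -- the local data in `J`
    let e : N ≃* N.subgroupOf J := (Subgroup.subgroupOfEquivOfLe hNJ).symm
    have hLJ := (hL.of_equiv e).locJ (N.subgroupOf J)
    have hey : (((e y : N.subgroupOf J) : J) : G) = y := by
      show (((Subgroup.subgroupOfEquivOfLe hNJ).symm y : N.subgroupOf J) : J).1 = _
      have := (Subgroup.subgroupOfEquivOfLe hNJ).apply_symm_apply y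
      exact congrArg Subtype.val this
    refine good_of_locA N J hperf h2 hJodd hNJ hLJ hJN ?_
    rw [eq_top_iff]
    intro g _
    have h1 : IsConj y (f (g : G) y) := (hmemA _).1 (hJA g.2)
    obtain ⟨n, hn⟩ := isConj_iff.1 h1
    have h3 : (n : G) * y * (n : G)⁻¹ = g * y * (g : G)⁻¹ := congrArg Subtype.val hn
    have hnJ : (n : G) ∈ J := hNJ n.2
    have h4 : g = (⟨n, hnJ⟩ : J) * ((⟨n, hnJ⟩ : J)⁻¹ * g) := by group
    rw [h4]
    refine Subgroup.mul_mem_sup (Subgroup.mem_subgroupOf.2 n.2) ?_
    rw [mem_Cst]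
    left
    apply Subtype.ext
    show (n : G)⁻¹ * g * (((e y : N.subgroupOf J) : J) : G) * ((n : G)⁻¹ * g)⁻¹ = (((e y : N.subgroupOf J) : J) : G)
    rw [hey]
    calc (n : G)⁻¹ * g * y * ((n : G)⁻¹ * g)⁻¹ = (n : G)⁻¹ * (g * y * (g : G)⁻¹) * n := by group
      _ = (n : G)⁻¹ * (n * y * (n : G)⁻¹) * n := by rw [h3]
      _ = y := by group
  · -- a subgroup of index two
    have hi : (D.comap f).index = 2 := by
      rw [Subgroup.index_comap]
      exact hD2
    haveI : (D.comap f).Normal := Subgroup.normal_of_index_eq_two hi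
    refine good_of_locB N (D.comap f) hperf h2 hi ?_ hLG ?_
    · intro n hn
      rw [Subgroup.mem_comap]
      apply hD1
      have := hconj ⟨n, hn⟩
      rw [show f n = MulAut.conj ⟨n, hn⟩ from this]
      exact ⟨conj_mem_stab _ _, ⟨n, this⟩⟩
    · intro g hg
      rw [Subgroup.mem_comap]
      apply hD1
      refine ⟨?_, ⟨g, rfl⟩⟩
      show IsConj y (f g y)
      rcases hg with h1 | h1
      · have h3 : f g y = y := Subtype.ext h1
        rw [h3]
      · have h3 : f g y = y⁻¹ := Subtype.ext h1
        rw [h3]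
        exact hL.real

end Cfsg.Agent.H694
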